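import Cfsg.Agent.H682.OppSyl
import Cfsg.Agent.Mrg.Omega.ML.LieRow.Lie

/-!
# Simple groups of Lie type: split (B,N)-pairs in every characteristic, and "fact B"

* `hasSplit_of_lieChar` : every finite simple group of Lie type in characteristic `p` has a split (B,N)-pair of
  characteristic `p`;
* `false_of_lie` : a simple group of Lie type has no automorphism `σ` such that all the automorphisms
  `conj s * σ` are conjugate to `σ` in the automorphism group.
-/

set_option autoImplicit false

namespace Cfsg.Agent.H682.FactB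

open Cfsg Cfsg.Agent.FixBN

theorem hasSplit_of_lieChar {p : ℕ} (hp : p.Prime) {G : Type*} [Group G] [IsSimpleGroup G]
    (h : IsLieTypeChar p G) : HasSplit p G := by
  rcases Nodes.RGDLie.hasRGD_of_lie h with h1 | ⟨rfl, -⟩ | ⟨rfl, -⟩ | ⟨rfl, h1⟩
  · exact Omega.ML.LieRow.hasSplit_of_rgd hp h1
  · exact Omega.ML.LieRow.hasSplit_of_lie h
  · exact Omega.ML.LieRow.hasSplit_of_lie h
  · exact ReeSplit.hasSplit_of_isoRee h1

theorem false_of_lie {S : Type*} [Group S] [Finite S] [IsSimpleGroup S] {r : ℕ} [hr : Fact r.Prime]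
    (h : IsLieTypeChar r S) (σ : MulAut S) (hσ : ∀ s : S, ∃ τ : MulAut S, τ * σ * τ⁻¹ = MulAut.conj s * σ) :
    False :=
  OppSyl.false_of_hasSplit (hasSplit_of_lieChar hr.out h) σ hσ

end Cfsg.Agent.H682.FactB
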